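import Cfsg.Agent.H947.TW.Abs
import Cfsg.Agent.GH.L2AutFix

/-!
# S3694, task T11 (helper947): `2 × 2` matrices and lifts

* `ch`, `span_of_comm` : Cayley-Hamilton, centralizers;
* `exists_lift` : every element of `G` has a lift `tauP B σ`.
-/

set_option autoImplicit false
set_option linter.unusedSectionVars false

namespace Cfsg.Agent.H947.TW

open Subgroup Cfsg.Agent.H607.TW Matrix

universe u

section Mat

variable {F : Type*} [Field F]

local notation "M2" => Matrix (Fin 2) (Fin 2) F

theorem ch (m : M2) : m * m = m.trace • m - m.det • (1 : M2) := by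
  ext i j
  fin_cases i <;> fin_cases j <;>
    simp [Matrix.mul_apply, Fin.sum_univ_two, Matrix.trace_fin_two, Matrix.det_fin_two, Matrix.sub_apply] <;> ring

/-- scalar matrices -/
def Sc (g : M2) : Prop := ∃ c : F, g = c • (1 : M2)

theorem span_of_comm {g y : M2} (hg : ¬ Sc g) (h : y * g = g * y) : ∃ a b : F, y = a • (1 : M2) + b • g := by
  have e00 := congrFun (congrFun h 0) 0
  have e01 := congrFun (congrFun h 0) 1
  have e10 := congrFun (congrFun h 1) 0
  simp only [Matrix.mul_apply, Fin.sum_univ_two] at e00 e01 e10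
  by_cases h01 : g 0 1 = 0
  · by_cases h10 : g 1 0 = 0
    · have hd : g 0 0 - g 1 1 ≠ 0 := by
        intro hd
        apply hg
        refine ⟨g 0 0, ?_⟩
        ext i j
        fin_cases i <;> fin_cases j
        · simp
        · simpa using h01
        · simpa using h10
        · simp; linear_combination -hd
      refine ⟨y 0 0 - (y 0 0 - y 1 1) / (g 0 0 - g 1 1) * g 0 0, (y 0 0 - y 1 1) / (g 0 0 - g 1 1), ?_⟩
      rw [h01] at e01
      rw [h10] at e10
      have y01 : y 0 1 = 0 := by
        have : y 0 1 * (g 0 0 - g 1 1) = 0 := by linear_combination -e01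
        exact (mul_eq_zero.1 this).resolve_right hd
      have y10 : y 1 0 = 0 := by
        have : y 1 0 * (g 0 0 - g 1 1) = 0 := by linear_combination e10
        exact (mul_eq_zero.1 this).resolve_right hd
      ext i j
      fin_cases i <;> fin_cases j
      · simp
      · simp [y01, h01]
      · simp [y10, h10]
      · simp
        field_simp
        ring
    · refine ⟨y 0 0 - y 1 0 / g 1 0 * g 0 0, y 1 0 / g 1 0, ?_⟩
      ext i j
      fin_cases i <;> fin_cases j
      · simp
      · simp
        field_simp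
        linear_combination e00
      · simp [h10]
      · simp
        field_simp
        linear_combination e10
  · refine ⟨y 0 0 - y 0 1 / g 0 1 * g 0 0, y 0 1 / g 0 1, ?_⟩
    ext i j
    fin_cases i <;> fin_cases j
    · simp
    · simp [h01]
    · simp
      field_simp
      linear_combination -e00
    · simp
      field_simp
      linear_combination -e01

theorem det_span (g : M2) (a b : F) : (a • (1 : M2) + b • g).det = a ^ 2 + a * b * g.trace + b ^ 2 * g.det := by
  rw [Matrix.det_fin_two, Matrix.det_fin_two, Matrix.trace_fin_two]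
  simp
  ring

theorem trace_span (g : M2) (a b : F) : (a • (1 : M2) + b • g).trace = 2 * a + b * g.trace := by
  rw [Matrix.trace_fin_two, Matrix.trace_fin_two]
  simp
  ring

theorem adj_eq (m : M2) : m.adjugate = m.trace • (1 : M2) - m := by
  rw [Matrix.adjugate_fin_two]
  ext i j
  fin_cases i <;> fin_cases j <;> simp [Matrix.trace_fin_two]

/-- the matrix `[[0, 1], [-1, 0]]` -/
def J : GL (Fin 2) F where
  val := !![0, 1; -1, 0]
  inv := !![0, -1; 1, 0]
  val_inv := by ext i j; fin_cases i <;> fin_cases j <;> simp [Matrix.mul_apply, Fin.sum_univ_two]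
  inv_val := by ext i j; fin_cases i <;> fin_cases j <;> simp [Matrix.mul_apply, Fin.sum_univ_two]

theorem J_adj (m : M2) : (J : GL (Fin 2) F).1 * m.adjugate * (J : GL (Fin 2) F).2 = m.transpose := by
  rw [Matrix.adjugate_fin_two]
  ext i j
  fin_cases i <;> fin_cases j <;> simp [J, Matrix.mul_apply, Fin.sum_univ_two]

end Mat

section Lift

variable {G : Type u} [Group G] {N : Subgroup G} {F : Type} [Field F]

local notation "M2" => Matrix (Fin 2) (Fin 2) F
local notation "S2" => Matrix.SpecialLinearGroup (Fin 2) F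

theorem mt_eq (s : S2) : mt (iSL 2 F) s = (s : M2) := rfl

theorem tauP_mul (B : GL (Fin 2) F) (σ : F ≃+* F) (x y : M2) : tauP B σ (x * y) = tauP B σ x * tauP B σ y := by
  rw [tauP_apply, tauP_apply, tauP_apply]
  have h1 : ((B⁻¹ : GL (Fin 2) F) : M2) * (B : M2) = 1 := by rw [← Units.val_mul, inv_mul_cancel, Units.val_one]
  have h2 : (x * y).map σ = x.map σ * y.map σ := by
    have := Matrix.map_mul (L := x) (M := y) (f := (σ : F →+* F))
    simpa using this
  rw [h2]
  calc (B : M2) * (x.map σ * y.map σ) * ((B⁻¹ : GL (Fin 2) F) : M2)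
      = (B : M2) * x.map σ * (1 : M2) * y.map σ * ((B⁻¹ : GL (Fin 2) F) : M2) := by simp only [mul_assoc, mul_one, one_mul]
    _ = _ := by rw [← h1]; simp only [mul_assoc]

theorem det_tauP (B : GL (Fin 2) F) (σ : F ≃+* F) (x : M2) : (tauP B σ x).det = σ x.det := by
  have h1 : ((B⁻¹ : GL (Fin 2) F) : M2).det * (B : M2).det = 1 := by
    rw [← Matrix.det_mul, ← Units.val_mul, inv_mul_cancel, Units.val_one, Matrix.det_one]
  have h2 : (x.map σ).det = σ x.det := by
    have := RingHom.map_det (σ : F →+* F) x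
    simpa using this.symm
  rw [tauP_apply, Matrix.det_mul, Matrix.det_mul, h2]
  linear_combination (σ x.det) * h1

theorem trace_tauP (B : GL (Fin 2) F) (σ : F ≃+* F) (x : M2) : (tauP B σ x).trace = σ x.trace := by
  have h1 : ((B⁻¹ : GL (Fin 2) F) : M2) * (B : M2) = 1 := by rw [← Units.val_mul, inv_mul_cancel, Units.val_one]
  rw [tauP_apply, Matrix.trace_mul_comm, ← mul_assoc, h1, one_mul, Matrix.trace_fin_two, Matrix.trace_fin_two]
  simp

theorem adj_tauP (B : GL (Fin 2) F) (σ : F ≃+* F) (x : M2) : (tauP B σ x).adjugate = tauP B σ x.adjugate := by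
  have h1 : (B : M2) * ((B⁻¹ : GL (Fin 2) F) : M2) = 1 := by rw [← Units.val_mul, mul_inv_cancel, Units.val_one]
  rw [adj_eq, adj_eq, trace_tauP, map_sub]
  congr 1
  rw [tauP_apply]
  have h2 : (x.trace • (1 : M2)).map σ = σ x.trace • (1 : M2) := by
    ext i j
    fin_cases i <;> fin_cases j <;> simp
  rw [h2, mul_smul_comm, mul_one, smul_mul_assoc, h1]

theorem tauM_eq (B : GL (Fin 2) F) (σ : F ≃+* F) (x : M2) : tauM B σ x = (tauP (B * J) σ x).adjugate := by
  rw [adj_tauP, tauM_apply, tauP_apply]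
  have h1 : x.transpose.map σ = (J : GL (Fin 2) F).1 * (x.adjugate.map σ) * (J : GL (Fin 2) F).2 := by
    have h2 : x.transpose.map σ = (x.map σ).transpose := by ext i j; rfl
    have h3 : x.adjugate.map σ = (x.map σ).adjugate := by
      rw [Matrix.adjugate_fin_two, Matrix.adjugate_fin_two]
      ext i j
      fin_cases i <;> fin_cases j <;> simp
    rw [h2, h3, J_adj]
  rw [h1, _root_.mul_inv_rev, Units.val_mul, Units.val_mul]
  have h4 : ((J⁻¹ : GL (Fin 2) F) : M2) = (J : GL (Fin 2) F).2 := rfl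
  rw [h4]
  simp only [mul_assoc]

theorem exists_noncomm : ∃ x y : M2, x * y ≠ y * x := by
  refine ⟨!![0, 1; 0, 0], !![0, 0; 1, 0], fun h => ?_⟩
  have := congrFun (congrFun h 0) 0
  simp [Matrix.mul_apply, Fin.sum_univ_two] at this

/-- the kernel -/
theorem pi_eq_one (π : S2 →* G) (hM : Model N (iSL 2 F) π) {s : S2} (h : π s = 1) : s = 1 ∨ s = -1 := by
  obtain ⟨c, hc⟩ := (hM.ker s).1 h
  rw [mt_eq] at hc
  have h1 : c ^ 2 = 1 := by
    have := congrArg Matrix.det hc
    rw [s.2, Matrix.det_smul, Matrix.det_one, mul_one, Fintype.card_fin] at this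
    exact this.symm
  have h2 : (c - 1) * (c + 1) = 0 := by linear_combination h1
  rcases mul_eq_zero.1 h2 with h3 | h3
  · left
    apply Subtype.ext
    have : c = 1 := by linear_combination h3
    rw [this, one_smul] at hc
    exact hc
  · right
    apply Subtype.ext
    have : c = -1 := by linear_combination h3
    rw [this, neg_smul, one_smul] at hc
    exact hc

theorem pi_neg_one (π : S2 →* G) (hM : Model N (iSL 2 F) π) : π (-1) = 1 := by
  rw [hM.ker, mt_eq]
  exact ⟨-1, by rw [neg_smul, one_smul]; rfl⟩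

theorem pi_eq (π : S2 →* G) (hM : Model N (iSL 2 F) π) {s t : S2} (h : π s = π t) : s = t ∨ s = -t := by
  have h1 : π (s * t⁻¹) = 1 := by rw [map_mul, map_inv, h, mul_inv_cancel]
  rcases pi_eq_one π hM h1 with h2 | h2
  · left
    exact mul_inv_eq_one.1 h2
  · right
    have h3 : s = (s * t⁻¹) * t := by group
    rw [h3, h2, neg_mul, one_mul]

/-- **Lifts.** -/
theorem exists_lift (π : S2 →* G) (hM : Model N (iSL 2 F) π) (g : G) :
    ∃ (B : GL (Fin 2) F) (σ : F ≃+* F), Ind (iSL 2 F) π g (tauP B σ) ∧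
      ∀ s : S2, ∃ s' : S2, (s' : M2) = tauP B σ (s : M2) ∧ π s' = g * π s * g⁻¹ := by
  obtain ⟨B, σ, h | h⟩ := hM.lift g
  · rcases h with ⟨h1, h2⟩ | ⟨h1, h2⟩
    · exact ⟨B, σ, Or.inl ⟨h1, h2⟩, h2⟩
    · exfalso
      obtain ⟨x, y, hxy⟩ := exists_noncomm (F := F)
      apply hxy
      apply (tauP B σ).injective
      rw [h1, tauP_mul]
  · rcases h with ⟨h1, h2⟩ | ⟨h1, h2⟩
    · exfalso
      obtain ⟨x, y, hxy⟩ := exists_noncomm (F := F)
      apply hxy
      apply (tauM B σ).injective
      have h3 : tauM B σ (y * x) = tauM B σ x * tauM B σ y := by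
        rw [tauM_eq, tauM_eq, tauM_eq, tauP_mul, Matrix.adjugate_mul_distrib]
      rw [h1, h3]
    · have h3 : ∀ s : S2, ∃ s' : S2, mt (iSL 2 F) s' = tauP (B * J) σ (mt (iSL 2 F) s) ∧ π s' = g * π s * g⁻¹ := by
        intro s
        obtain ⟨s', hs1, hs2⟩ := h2 s
        refine ⟨s'⁻¹, ?_, by rw [map_inv, hs2]⟩
        rw [mt_eq, Matrix.SpecialLinearGroup.coe_inv, ← mt_eq, hs1, tauM_eq, adj_eq, adj_eq]
        have h4 : ((tauP (B * J) σ (mt (iSL 2 F) s)).trace • (1 : M2) - tauP (B * J) σ (mt (iSL 2 F) s)).trace =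
            (tauP (B * J) σ (mt (iSL 2 F) s)).trace := by
          rw [Matrix.trace_sub, Matrix.trace_smul, Matrix.trace_one, Fintype.card_fin, smul_eq_mul]
          push_cast
          ring
        rw [h4]
        abel
      exact ⟨B * J, σ, Or.inl ⟨tauP_mul _ _, h3⟩, h3⟩

end Lift

end Cfsg.Agent.H947.TW
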